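import Cfsg.Agent.Lib.CharDeg.SigmaPow
import Cfsg.Agent.Lib.Modular.Vanish
import Cfsg.Agent.Lib.Modular.RealTwo
import Cfsg.Agent.Lib.Block.DefectOrder

/-! Sums over the members of the principal block fixed by a Galois automorphism of `p`-power
order, modulo `M`. -/

set_option autoImplicit false

namespace Cfsg.Lib.SG2

open Cfsg.Lib.Char Cfsg.Lib.CharDeg Cfsg.Lib.Block Cfsg.Lib.Modular Subgroup
open scoped ComplexConjugate

open Classical in
/-- A sum of an invariant function with values in an abelian group of exponent `p` over a set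
acted on by a map of `p`-power order is the sum over the fixed points. -/
theorem sum_fixed {X A : Type*} [Fintype X] [AddCommMonoid A] {p n : ℕ}
    [Fact p.Prime] (f : Function.End X) (hf : f ^ p ^ n = 1) (φ : X → A)
    (hφ : ∀ x, φ (f x) = φ x) (hA : ∀ a : A, p • a = 0) :
    ∑ x, φ x = ∑ x : X with f x = x, φ x := by
  rw [← Finset.sum_fiberwise_of_maps_to (s := Finset.univ) (t := Finset.univ.image φ) (g := φ)
      (fun x _ => Finset.mem_image_of_mem _ (Finset.mem_univ x)),
    ← Finset.sum_fiberwise_of_maps_to (s := Finset.univ.filter fun x => f x = x)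
      (t := Finset.univ.image φ) (g := φ)
      (fun x _ => Finset.mem_image_of_mem _ (Finset.mem_univ x))]
  refine Finset.sum_congr rfl fun c _ => ?_
  rw [Finset.sum_congr rfl (g := fun _ => c) (fun x hx => (Finset.mem_filter.1 hx).2),
    Finset.sum_congr (s₁ := Finset.filter _ (Finset.filter _ _)) rfl (g := fun _ => c)
      (fun x hx => (Finset.mem_filter.1 hx).2), Finset.sum_const, Finset.sum_const]
  let g : Function.End {x // φ x = c} := fun x => ⟨f x.1, (hφ x.1).trans x.2⟩
  have hg : ∀ (m : ℕ) (x : {x // φ x = c}), ((g ^ m) x).1 = (f ^ m) x.1 := by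
    intro m
    induction m with
    | zero => intro x; rfl
    | succ m ih => intro x; rw [pow_succ', pow_succ']; exact congrArg f (ih x)
  have hg1 : g ^ p ^ n = 1 := by
    funext x; apply Subtype.ext; rw [hg, hf]; rfl
  have h1 := Equiv.Perm.card_fixedPoints_modEq hg1
  have h2 : Fintype.card g.fixedPoints =
      (Finset.filter (fun x => φ x = c) (Finset.univ.filter fun x => f x = x)).card := by
    rw [Finset.filter_filter, ← Fintype.card_subtype]
    exact Fintype.card_congr ⟨fun x => ⟨x.1.1, congrArg Subtype.val x.2, x.1.2⟩,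
      fun x => ⟨⟨x.1, x.2.2⟩, Subtype.ext x.2.1⟩, fun _ => rfl, fun _ => rfl⟩
  rw [Fintype.card_subtype, h2] at h1
  rw [nsmul_eq_mod_nsmul _ (hA c), h1, ← nsmul_eq_mod_nsmul _ (hA c)]

variable {G : Type*} [Group G] [Finite G] {p : ℕ} [hp : Fact p.Prime] {M : Ideal AlgInt}
  [hM : Modular p M]

open Classical in
/-- The sum of `χ 1 * χ g` over the principal block lies in the local ideal. -/
theorem red_sum_principal (hd : p ∣ Nat.card G) (g : G) :
    ∑ χ with χ ∈ principalBlock M G,
      (charDegree (χ : G → ℂ) : Res M) * red M ((χ : G → ℂ) g) = 0 := by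
  have h1 := blockCoeff_eq (principalBlock M G) g⁻¹
  have h2 := Block.isPBlock_principalBlock.blockCoeff_mem (M := M) (G := G) g⁻¹
  have h3 : ∑ χ with χ ∈ principalBlock M G, (χ : G → ℂ) 1 * (χ : G → ℂ) g =
      Nat.card G * blockCoeff (principalBlock M G) g⁻¹ := by
    rw [h1, mul_inv_cancel_left₀ (card_ne_zero_complex G)]
    refine Finset.sum_congr rfl fun χ _ => ?_
    rw [χ.2.isCharacter.apply_inv g, Complex.conj_conj]
  have h4 := congrArg (red M) h3
  rw [red_mul (natCast_mem _ _) h2, red_natCast, (CharP.cast_eq_zero_iff (Res M) p _).2 hd,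
    zero_mul, red_sum _ _ (fun χ _ => mul_mem (irr_mem χ 1) (irr_mem χ g))] at h4
  rw [← h4]
  refine Finset.sum_congr rfl fun χ _ => ?_
  rw [red_mul (irr_mem χ 1) (irr_mem χ g), χ.2.apply_one_eq, red_natCast]

open Classical in
/-- For a linear character `l` of a Sylow subgroup, the sum over the principal block of
`χ 1` times the multiplicity of `l` in `χ` is prime to `p`. -/
theorem red_sum_mult (P : Sylow p G) [Fintype (P : Subgroup G)] (l : (P : Subgroup G) →* ℂˣ) :
    ∑ χ with χ ∈ principalBlock M G, (charDegree (χ : G → ℂ) : Res M) *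
      red M (classInner (fun x : (P : Subgroup G) => (χ : G → ℂ) x) fun x => (l x : ℂ)) ≠ 0 := by
  have := Fintype.ofFinite G
  choose m hm using fun χ : IrrCharacter G =>
    (χ.2.isCharacter.restrict (P : Subgroup G)).exists_inner_eq_nat
      (isIrrCharacter_hom l).isCharacter
  have hm' : ∀ χ : IrrCharacter G,
      classInner (fun x : (P : Subgroup G) => (χ : G → ℂ) x) (fun x => (l x : ℂ)) = m χ := hm
  have h0 := factorization_sum_degree_sq (p := p) (Block.isPBlock_principalBlock (M := M) (G := G))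
  rw [blockDefect_principalBlock, show 2 * (Nat.card G).factorization p -
    (Nat.card G).factorization p = (Nat.card G).factorization p by omega] at h0
  have h1 : (Nat.card (P : Subgroup G) : ℂ) * ∑ χ with χ ∈ principalBlock M G, (χ : G → ℂ) 1 * m χ =
      ∑ χ with χ ∈ principalBlock M G, (χ : G → ℂ) 1 * (χ : G → ℂ) 1 := by
    have hP : (Nat.card (P : Subgroup G) : ℂ) ≠ 0 := Nat.cast_ne_zero.2 Nat.card_pos.ne'
    simp only [← hm', classInner, Finset.mul_sum]
    rw [Finset.sum_comm, Finset.sum_eq_single 1]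
    · refine Finset.sum_congr rfl fun χ _ => ?_
      simp only [map_one, Units.val_one, mul_one, OneMemClass.coe_one]
      field_simp
    · intro x _ hx
      have h2 : p ∣ orderOf (x : G) := dvd_orderOf_of_pElt (pElt_of_mem hp.out P.isPGroup' x.2)
        (fun h => hx (Subtype.ext h))
      have h3 := sum_mul_apply_eq_zero (p := p)
        (Block.isPBlock_principalBlock (M := M) (G := G)).fblk_mem_SG (g := 1)
        (by rw [orderOf_one]; exact hp.out.not_dvd_one) h2
      rw [Finset.sum_congr rfl (g := fun χ : IrrCharacter G =>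
        conj (l x : ℂ) * ((χ : G → ℂ) x * (χ : G → ℂ) 1)) (fun χ _ => by field_simp),
        ← Finset.mul_sum, h3, mul_zero]
    · simp
  have h2 : Nat.card (P : Subgroup G) * ∑ χ with χ ∈ principalBlock M G, charDegree (χ : G → ℂ) * m χ =
      ∑ χ with χ ∈ principalBlock M G, charDegree (χ : G → ℂ) ^ 2 := by
    simp only [fun χ : IrrCharacter G => χ.2.apply_one_eq] at h1
    simp only [sq]
    exact_mod_cast h1
  simp only [hm', red_natCast]
  rw [← h2, P.card_eq_multiplicity] at h0
  intro h
  have h3 : p ∣ ∑ χ with χ ∈ principalBlock M G, charDegree (χ : G → ℂ) * m χ := by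
    rw [← CharP.cast_eq_zero_iff (Res M) p]; exact_mod_cast h
  have h4 : ∑ χ with χ ∈ principalBlock M G, charDegree (χ : G → ℂ) * m χ ≠ 0 := by
    intro h5
    rw [h5, mul_zero, eq_comm, Finset.sum_eq_zero_iff] at h2
    have := h2 (irrOne G) (by simpa using Block.irrOne_mem_principalBlock)
    rw [coe_irrOne, charDegree_one] at this
    simp at this
  rw [Nat.factorization_mul (pow_ne_zero _ hp.out.ne_zero) h4, Finsupp.add_apply,
    hp.out.factorization_pow, Finsupp.single_eq_same] at h0
  have := hp.out.factorization_pos_of_dvd h4 h3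
  omega

open Classical in
/-- A sum over the principal block with the degrees as coefficients reduces, modulo `M`, to the
members of degree prime to `p` fixed by `g ↦ g ^ k`, if this map has `p`-power order and
fixes the `p`-regular sum. -/
theorem sum_principal_fixed {k n : ℕ} (hcop : k.Coprime (Nat.card G))
    (hk : ∀ g : G, g ^ k ^ p ^ n = g)
    (hB : ∀ χ : IrrCharacter G, χ ∈ principalBlock M G →
      (⟨_, χ.2.comp_pow hcop⟩ : IrrCharacter G) ∈ principalBlock M G)
    (φ : (G → ℂ) → Res M) (hφ : ∀ χ : IrrCharacter G, φ (fun g => (χ : G → ℂ) (g ^ k)) = φ χ) :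
    ∑ χ with χ ∈ principalBlock M G, (charDegree (χ : G → ℂ) : Res M) * φ χ =
      ∑ χ with χ ∈ principalBlock M G ∧ ¬ p ∣ charDegree (χ : G → ℂ) ∧
        ∀ g : G, (χ : G → ℂ) (g ^ k) = (χ : G → ℂ) g, (charDegree (χ : G → ℂ) : Res M) * φ χ := by
  let X := {χ : IrrCharacter G // χ ∈ principalBlock M G}
  let f : Function.End X := fun χ => ⟨⟨_, χ.1.2.comp_pow hcop⟩, hB χ.1 χ.2⟩
  have hf : ∀ (n : ℕ) (χ : X) (g : G), (((f ^ n) χ).1 : G → ℂ) g = (χ.1 : G → ℂ) (g ^ k ^ n) := by
    intro n
    induction n with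
    | zero => intro χ g; simp; rfl
    | succ n ih =>
      intro χ g
      rw [pow_succ', pow_succ', pow_mul, ← ih]
      rfl
  have hf1 : f ^ p ^ n = 1 := by
    funext χ
    apply Subtype.ext; apply Subtype.ext
    funext g
    rw [hf, hk]
    rfl
  have h1 := sum_fixed f hf1 (fun χ : X => (charDegree (χ.1 : G → ℂ) : Res M) * φ χ.1)
    (fun χ => by
      change (charDegree (fun g => (χ.1 : G → ℂ) (g ^ k)) : Res M) *
        φ (fun g => (χ.1 : G → ℂ) (g ^ k)) = _
      rw [hφ, charDegree_congr (ψ := (χ.1 : G → ℂ)) (by simp)])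
    (fun a => by rw [nsmul_eq_mul, CharP.cast_eq_zero, zero_mul])
  rw [Finset.sum_subtype (p := fun χ => χ ∈ principalBlock M G) _ (by simp), h1,
    Finset.sum_filter, Finset.sum_filter,
    ← Finset.sum_filter_add_sum_filter_not Finset.univ (fun χ => χ ∈ principalBlock M G),
    Finset.sum_eq_zero (s := Finset.filter (fun χ => ¬ χ ∈ principalBlock M G) _)
      (fun χ hχ => if_neg fun h => (Finset.mem_filter.1 hχ).2 h.1), add_zero,
    Finset.sum_subtype (p := fun χ => χ ∈ principalBlock M G) _ (by simp)]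
  refine Finset.sum_congr rfl fun χ _ => ?_
  have e : f χ = χ ↔ ∀ g : G, (χ.1 : G → ℂ) (g ^ k) = (χ.1 : G → ℂ) g :=
    ⟨fun h g => congrFun (congrArg (fun x : X => (x.1 : G → ℂ)) h) g,
      fun h => Subtype.ext (Subtype.ext (funext h))⟩
  by_cases hd : p ∣ charDegree (χ.1 : G → ℂ)
  · rw [(CharP.cast_eq_zero_iff (Res M) p _).2 hd]; simp
  · simp only [e, χ.2, hd, not_false_eq_true, true_and]

end Cfsg.Lib.SG2
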